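import Mathlib
import Cfsg.Agent.Lib.Helper15.CyclicGl2
import Cfsg.Agent.Lib.Helper15.LinearMul
import Cfsg.Agent.Lib.Helper15.Clifford2
import Cfsg.Agent.Lib.Helper80.Inflation
import Cfsg.Agent.Lib.Helper80.Quot

/-!
# Characters over a normal subgroup with abelian quotient (helper82)

* `irr_restrict_of_nonvanishing`: if `G / N` is abelian and `χ ∈ Irr(G)` vanishes identically on no
  coset of `N`, then `χ_N` is irreducible.
* `card_extensions`: if every irreducible character of `G` over `θ ∈ Irr(N)` restricts to `θ`, then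
  there are exactly `|G : N|` of them.
-/

set_option autoImplicit false

namespace Cfsg.Agent.Lib.Helper82

open Cfsg Cfsg.Agent.Lib.Helper15
open scoped ComplexConjugate

variable {G : Type*} [Group G] [Fintype G] (N : Subgroup G) [hN : N.Normal] [Fintype N]

theorem irr_restrict_of_nonvanishing (hab : ∀ a b : G ⧸ N, a * b = b * a) (χ : IrrCharacter G)
    (hnv : ∀ g : G, ∃ n ∈ N, (χ : G → ℂ) (g * n) ≠ 0) :
    IsIrrCharacter N (fun n : N => (χ : G → ℂ) n) := by
  classical
  rw [isIrr_iff]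
  refine ⟨char_restrict (irr_char χ.2) N, ?_⟩
  have : Fintype (G ⧸ N) := Fintype.ofFinite _
  have : Fintype (IrrCharacter (G ⧸ N)) := Fintype.ofFinite _
  -- the inflated linear characters
  set infl : IrrCharacter (G ⧸ N) → (G → ℂ) := fun β g => (β : G ⧸ N → ℂ) (g : G ⧸ N) with hinfl
  have hinfl_char : ∀ β, IsCharacter G (infl β) := fun β =>
    irr_char (Helper80.inflateEquiv N β).1.2
  have hinfl_one : ∀ β, infl β 1 = 1 := fun β => Helper80.char_one_eq_one_of_comm hab β
  have hsum : ∀ g : G, ∑ β : IrrCharacter (G ⧸ N), infl β g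
      = if g ∈ N then (Nat.card (G ⧸ N) : ℂ) else 0 := by
    intro g
    have := sum_irr_of_comm hab (g : G ⧸ N)
    rw [show (∑ β : IrrCharacter (G ⧸ N), infl β g)
      = ∑ β : IrrCharacter (G ⧸ N), (β : G ⧸ N → ℂ) (g : G ⧸ N) from rfl]
    have e : (g ∈ N) = ((g : G ⧸ N) = 1) := propext (QuotientGroup.eq_one_iff (N := N) g).symm
    simp only [e]
    convert this
  set β₀ : IrrCharacter (G ⧸ N) := ⟨fun _ => 1, irr_one⟩ with hβ₀
  have hfix : ∀ β : IrrCharacter (G ⧸ N), infl β * (χ : G → ℂ) = (χ : G → ℂ) ↔ β = β₀ := by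
    intro β
    constructor
    · intro h
      apply Subtype.ext
      funext q
      obtain ⟨g, rfl⟩ := QuotientGroup.mk_surjective q
      obtain ⟨n, hn, hne⟩ := hnv g
      have h1 := congrFun h (g * n)
      rw [Pi.mul_apply] at h1
      have h2 : infl β (g * n) = 1 := mul_right_cancel₀ hne (h1.trans (one_mul _).symm)
      have h3 : ((g * n : G) : G ⧸ N) = (g : G ⧸ N) := by
        rw [QuotientGroup.mk_mul, (QuotientGroup.eq_one_iff n).2 hn, mul_one]
      have h4 : infl β (g * n) = (β : G ⧸ N → ℂ) (g : G ⧸ N) := by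
        rw [hinfl]; simp only [h3]
      rw [← h4, h2]
    · rintro rfl
      funext g
      rw [Pi.mul_apply]
      exact one_mul _
  have hinner : ∀ β : IrrCharacter (G ⧸ N),
      classInner (infl β * (χ : G → ℂ)) (χ : G → ℂ) = if β = β₀ then 1 else 0 := by
    intro β
    by_cases h : β = β₀
    · rw [if_pos h, (hfix β).2 h, irr_inner_self χ.2]
    · rw [if_neg h]
      exact irr_inner_ne (irr_linear_mul (hinfl_char β) (hinfl_one β) χ.2) χ.2
        (fun hc => h ((hfix β).1 hc))
  have hG : (Nat.card G : ℂ) ≠ 0 := card_ne_zero G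
  have hNc : (Nat.card N : ℂ) ≠ 0 := card_ne_zero N
  have hQ : (Nat.card (G ⧸ N) : ℂ) ≠ 0 := card_ne_zero _
  have h1 : (Nat.card N : ℂ) * classInner (fun n : N => (χ : G → ℂ) n) (fun n : N => (χ : G → ℂ) n)
      = ∑ g : G, if g ∈ N then (χ : G → ℂ) g * conj ((χ : G → ℂ) g) else 0 := by
    unfold classInner
    rw [mul_inv_cancel_left₀ hNc, ← Finset.sum_filter]
    apply Finset.sum_bij (fun (h : N) _ => (h : G))
    · intro h _; simp
    · intro a _ b _ hab; exact Subtype.ext hab
    · intro g hg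
      exact ⟨⟨g, (Finset.mem_filter.1 hg).2⟩, Finset.mem_univ _, rfl⟩
    · intro h _; rfl
  have h2 : (Nat.card (G ⧸ N) : ℂ) *
      ∑ g : G, (if g ∈ N then (χ : G → ℂ) g * conj ((χ : G → ℂ) g) else 0)
      = ∑ β : IrrCharacter (G ⧸ N),
          (Nat.card G : ℂ) * classInner (infl β * (χ : G → ℂ)) (χ : G → ℂ) := by
    unfold classInner
    simp_rw [mul_inv_cancel_left₀ hG]
    rw [Finset.sum_comm, Finset.mul_sum]
    apply Finset.sum_congr rfl
    intro g _
    simp_rw [Pi.mul_apply, mul_assoc]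
    rw [← Finset.sum_mul, hsum g]
    split_ifs <;> simp
  simp_rw [hinner] at h2
  rw [← Finset.mul_sum, Finset.sum_ite_eq' Finset.univ β₀, if_pos (Finset.mem_univ _), mul_one,
    ← h1] at h2
  have h3 : (Nat.card G : ℂ) = (Nat.card (G ⧸ N) : ℂ) * (Nat.card N : ℂ) := by
    rw [← Nat.cast_mul, ← Subgroup.card_eq_card_quotient_mul_card_subgroup]
  rw [h3] at h2
  have h4 := mul_left_cancel₀ hQ h2
  exact mul_left_cancel₀ hNc (h4.trans (mul_one _).symm)

omit hN in
/-- If every irreducible character of `G` lying over `θ` restricts to `θ`, there are exactly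
`|G : N|` of them. -/
theorem card_extensions (θ : IrrCharacter N)
    (h : ∀ χ : IrrCharacter G, classInner (fun n : N => (χ : G → ℂ) n) (θ : N → ℂ) ≠ 0 →
      ∀ n : N, (χ : G → ℂ) n = (θ : N → ℂ) n) :
    Nat.card {χ : IrrCharacter G // ∀ n : N, (χ : G → ℂ) n = (θ : N → ℂ) n} = N.index := by
  classical
  have : Fintype (IrrCharacter G) := Fintype.ofFinite _
  have h1 := congrFun (cf_expansion (char_cf (char_indFun N (irr_char θ.2)))) 1
  rw [indFun_one, Finset.sum_apply] at h1
  have h2 : ∀ χ : IrrCharacter G,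
      (classInner (indFun N (θ : N → ℂ)) (χ : G → ℂ) • (χ : G → ℂ)) 1
        = if (∀ n : N, (χ : G → ℂ) n = (θ : N → ℂ) n) then (θ : N → ℂ) 1 else 0 := by
    intro χ
    rw [Pi.smul_apply, smul_eq_mul, classInner_indFun_left N _ _ (irr_cf χ.2)]
    by_cases hχ : ∀ n : N, (χ : G → ℂ) n = (θ : N → ℂ) n
    · rw [if_pos hχ]
      have : (fun n : N => (χ : G → ℂ) n) = (θ : N → ℂ) := funext hχ
      rw [this, irr_inner_self θ.2, one_mul]
      exact hχ 1
    · rw [if_neg hχ]
      have : classInner (θ : N → ℂ) (fun n : N => (χ : G → ℂ) n) = 0 := by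
        by_contra hc
        apply hχ
        apply h χ
        rwa [inner_comm_of_char (char_restrict (irr_char χ.2) N) (irr_char θ.2)]
      rw [this, zero_mul]
  simp_rw [h2] at h1
  rw [← Finset.sum_filter, Finset.sum_const, nsmul_eq_mul] at h1
  have h3 := mul_right_cancel₀ (irr_one_ne_zero θ.2) h1
  rw [Nat.card_eq_fintype_card, Fintype.card_subtype]
  exact_mod_cast h3.symm

end Cfsg.Agent.Lib.Helper82
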